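import Cfsg.Agent.Lib.Compute.Mult.He.ThmU

/-!
# The Schur multiplier of the Held group: the end of the proof
-/

set_option autoImplicit false
set_option maxRecDepth 100000

namespace Cfsg.Agent.Lib.Compute.Mult.He

open Cfsg Cfsg.Spor
open Cfsg.Agent.Lib.Compute.PermCert Cfsg.Agent.Lib.Compute.PeelCert Cfsg.Agent.Lib.Compute.CoverCert
open Cfsg.Agent.Lib.Compute.SchurLin Cfsg.Agent.Lib.Compute.SchurU Cfsg.Agent.Lib.Compute.PresTransfer
open Cfsg.Agent.Lib.Compute.StemQuot
open Cfsg.Agent.Lib.Compute.ToddCoxeterCore (wordEl wordEl_nil wordEl_cons wordEl_append)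
open Cfsg.Agent.Lib.Compute.ToddCoxeterPresented (toLetters letterOf coxList mem_coxR HOf)
open Cfsg.Agent.Lib.Compute.Sp44 (Sp4)
open Cfsg.Agent.Lib.Compute.GFModel (GF4 card_GF4)

/-- The multiplier of `Sp₄(4)`. -/
theorem sp4_mult : HasCyclicSchurMultiplier Sp4 1 := by
  have h1 := Cfsg.Agent.S2092.result (F := GF4) (q := 4) card_GF4 2 (le_refl 2) (fun _ => by norm_num) (by norm_num)
  have h2 : Nat.gcd 2 (4 - 1) = 1 := by norm_num
  rw [h2] at h1
  have hc : Nat.card (Subgroup.center Sp4) = 1 := by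
    have := Cfsg.Agent.Lib.Classical.Symp.SimpleMatrix.card_center_symplecticGroup (F := GF4) (q := 4) card_GF4 2 (by norm_num)
    rw [h2] at this
    exact this
  have hb : Subgroup.center Sp4 = ⊥ := by
    rw [← Subgroup.card_eq_one]
    exact hc
  let e : Sp4 ≃* Cfsg.PSp 2 GF4 := ((QuotientGroup.quotientMulEquivOfEq hb).trans QuotientGroup.quotientBot).symm
  exact hasSchur_transport e h1

theorem sp4_perf : commutator Sp4 = ⊤ :=
  Cfsg.Agent.Lib.Classical.Symp.Perfect.commutator_symplecticGroup 2 (Or.inr (Or.inl ⟨rfl, by rw [card_GF4]; norm_num⟩))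

section Main

variable (hS : IsHe Cfsg.Spor.He)

/-- The subgroup of index `2058`. -/
abbrev KK : Subgroup Cfsg.Spor.He := HOf RS Cfsg.Agent.Lib.Compute.TC.He1.D.Hs

/-- The points `0` and `15`. -/
def p0 : Fin 4116 := ⟨0, by norm_num⟩
/-- The points `0` and `15`. -/
def p1 : Fin 4116 := ⟨15, by norm_num⟩

theorem p_ne : p0 ≠ p1 := by decide

/-- The elements of `K` preserve a set of two points. -/
theorem KK_pres (ρ : Cfsg.Spor.He →* Equiv.Perm (Fin 4116)) (hρ : ∀ j < 7, ρ (g j) = tp pTab j) :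
    ∀ x ∈ KK, (ρ x p0 = p0 ∧ ρ x p1 = p1) ∨ (ρ x p0 = p1 ∧ ρ x p1 = p0) := by
  have hgen : ∀ h ∈ Cfsg.Agent.Lib.Compute.TC.He1.D.Hs, (ρ (PresentedGroup.mk RS h) p0 = p0 ∧ ρ (PresentedGroup.mk RS h) p1 = p1) ∨
      (ρ (PresentedGroup.mk RS h) p0 = p1 ∧ ρ (PresentedGroup.mk RS h) p1 = p0) := by
    intro h hh
    have h1 := map_mk_eq eG RS lets hcode ρ (tp pTab) hρ h
    have h2 := hK_words h hh 0 (by simp)
    have h3 := hK_words h hh 15 (by simp)
    have e0 := word_tp pTab (toLetters lets h) (hK_lt h) p0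
    have e1 := word_tp pTab (toLetters lets h) (hK_lt h) p1
    rw [← h1] at e0 e1
    have hinj := (ρ (PresentedGroup.mk RS h)).injective
    rcases h2 with h2 | h2
    · left
      have a0 : ρ (PresentedGroup.mk RS h) p0 = p0 := Fin.ext (e0.trans h2)
      refine ⟨a0, ?_⟩
      rcases h3 with h3 | h3
      · have a1 : ρ (PresentedGroup.mk RS h) p1 = p0 := Fin.ext (e1.trans h3)
        exact absurd (hinj (a0.trans a1.symm)) p_ne
      · exact Fin.ext (e1.trans h3)
    · right
      have a0 : ρ (PresentedGroup.mk RS h) p0 = p1 := Fin.ext (e0.trans h2)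
      refine ⟨a0, ?_⟩
      rcases h3 with h3 | h3
      · exact Fin.ext (e1.trans h3)
      · have a1 : ρ (PresentedGroup.mk RS h) p1 = p1 := Fin.ext (e1.trans h3)
        exact absurd (hinj (a0.trans a1.symm)) p_ne
  rintro x ⟨y, hy, rfl⟩
  induction hy using Subgroup.closure_induction with
  | mem h hh => exact hgen h hh
  | one => left; simp
  | mul a b _ _ ha hb =>
    rw [map_mul, map_mul]
    rcases ha with ⟨a0, a1⟩ | ⟨a0, a1⟩ <;> rcases hb with ⟨b0, b1⟩ | ⟨b0, b1⟩
    · left
      simp [a0, a1, b0, b1]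
    · right
      simp [a0, a1, b0, b1]
    · right
      simp [a0, a1, b0, b1]
    · left
      simp [a0, a1, b0, b1]
  | inv a _ ha =>
    rw [map_inv, map_inv]
    rcases ha with ⟨a0, a1⟩ | ⟨a0, a1⟩
    · left
      constructor
      · rw [Equiv.Perm.inv_eq_iff_eq]
        exact a0.symm
      · rw [Equiv.Perm.inv_eq_iff_eq]
        exact a1.symm
    · right
      constructor
      · rw [Equiv.Perm.inv_eq_iff_eq]
        exact a1.symm
      · rw [Equiv.Perm.inv_eq_iff_eq]
        exact a0.symm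

include hS in
/-- The stabilizer of the first point is isomorphic to `Sp₄(4)`. -/
theorem stab_equiv (ρ : Cfsg.Spor.He →* Equiv.Perm (Fin 4116)) (hρ : ∀ j < 7, ρ (g j) = tp pTab j) :
    Nonempty ((@MulAction.stabilizer _ (Fin 4116) _ (MulAction.compHom (Fin 4116) ρ) ⟨0, by norm_num⟩) ≃* Sp4) := by
  have hparT : ∀ i < 4116, i ≠ 0 → parG i < i ∧ ltG i < 14 ∧ tG (parG i) (ltG i) = i :=
    fun i hi h0 => (tab_spec hi).2 h0
  letI : MulAction Cfsg.Spor.He (Fin 4116) := MulAction.compHom (Fin 4116) ρ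
  have hcardG : Nat.card Cfsg.Spor.He = 4030387200 := hS.2
  have hfin : Finite Cfsg.Spor.He := Nat.finite_of_card_ne_zero (by rw [hcardG]; norm_num)
  have hc := card_stabilizer_of_table (g := g) pTab (by norm_num) ρ hρ hparT
  rw [hcardG] at hc
  set St := MulAction.stabilizer Cfsg.Spor.He (⟨0, by norm_num⟩ : Fin 4116) with hSt
  have hSt' : Nat.card St = 979200 := by omega
  -- the subgroup `K`
  have hK2 : KK.index = 2058 := Cfsg.Agent.Lib.Compute.TC.He1.index
  have hK3 := KK.card_mul_index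
  rw [hK2, hcardG] at hK3
  have hK4 : Nat.card KK = 1958400 := by omega
  -- the stabilizer in `K`
  set S₁ : Subgroup KK := St.subgroupOf KK with hS₁
  have hstab : S₁ = MulAction.stabilizer KK (⟨0, by norm_num⟩ : Fin 4116) := by
    ext x
    rfl
  have hS₁i : S₁.index ≤ 2 := by
    rw [hstab, MulAction.index_stabilizer]
    have h1 : MulAction.orbit KK (⟨0, by norm_num⟩ : Fin 4116) ⊆ {p0, p1} := by
      rintro _ ⟨x, rfl⟩
      rcases KK_pres ρ hρ x x.2 with ⟨h, -⟩ | ⟨h, -⟩
      · left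
        exact h
      · right
        exact h
    calc (MulAction.orbit KK (⟨0, by norm_num⟩ : Fin 4116)).ncard ≤ ({p0, p1} : Set (Fin 4116)).ncard :=
          Set.ncard_le_ncard h1 (Set.toFinite _)
      _ ≤ 2 := Set.ncard_pair p_ne |>.le
  have hS₁c := S₁.card_mul_index
  rw [hK4] at hS₁c
  have hS₁le : Nat.card S₁ ≤ Nat.card St := by
    have h1 : Function.Injective (fun x : S₁ => (⟨((x : KK) : Cfsg.Spor.He), x.2⟩ : St)) := by
      intro a b hab
      apply Subtype.ext
      apply Subtype.ext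
      exact congrArg (fun u : St => (u : Cfsg.Spor.He)) hab
    exact Nat.card_le_card_of_injective _ h1
  rw [hSt'] at hS₁le
  have hS₁card : Nat.card S₁ = 979200 := by
    have h1 : S₁.index ≠ 0 := by
      intro h0
      rw [h0] at hS₁c
      simp at hS₁c
    have h2 : S₁.index = 1 ∨ S₁.index = 2 := by omega
    rcases h2 with h2 | h2
    · rw [h2] at hS₁c
      omega
    · rw [h2] at hS₁c
      omega
  have hS₁idx : S₁.index = 2 := by
    rw [hS₁card] at hS₁c
    omega
  have hle : St ≤ KK := by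
    have h1 : S₁.map KK.subtype ≤ St := by
      rintro _ ⟨x, hx, rfl⟩
      exact hx
    have h2 : Nat.card St ≤ Nat.card (S₁.map KK.subtype) := by
      rw [Subgroup.card_map_of_injective KK.subtype_injective, hS₁card, hSt']
    have h3 := Subgroup.eq_of_le_of_card_ge h1 h2
    rw [← h3]
    exact Subgroup.map_subtype_le S₁
  -- the subgroup of `Sp₄(4)`
  obtain ⟨N, hNn, hNi, ⟨eN⟩⟩ := Cfsg.Agent.Lib.Compute.HeSp4.main hcardG
  have hNp : commutator N = ⊤ := commutator_top_of_equiv eN sp4_perf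
  have hcomm : ∀ a b : KK, a * b * a⁻¹ * b⁻¹ ∈ S₁ := by
    intro a b
    have h1 : a * b * a⁻¹ * b⁻¹ = (a * b) * (b * a)⁻¹ := by group
    rw [h1, Subgroup.mul_mem_iff_of_index_two hS₁idx, Subgroup.inv_mem_iff,
      Subgroup.mul_mem_iff_of_index_two hS₁idx, Subgroup.mul_mem_iff_of_index_two hS₁idx]
    tauto
  have hNle : N ≤ S₁ := by
    have h1 : ⁅N, N⁆ ≤ S₁ := by
      rw [Subgroup.commutator_le]
      intro a _ b _
      rw [commutatorElement_def]
      exact hcomm a b
    have h2 := Subgroup.map_subtype_commutator N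
    rw [hNp] at h2
    intro x hx
    apply h1
    rw [← h2]
    exact ⟨⟨x, hx⟩, trivial, rfl⟩
  have hNcard := N.card_mul_index
  rw [hNi, hK4] at hNcard
  have hNeq : N = S₁ := Subgroup.eq_of_le_of_card_ge hNle (by
    have h9 : Nat.card S₁ ≤ Nat.card N := by
      rw [hS₁card]
      omega
    exact h9)
  exact ⟨(Subgroup.subgroupOfEquivOfLe hle).symm.trans ((MulEquiv.subgroupCongr hNeq.symm).trans eN)⟩

include hS in
/-- All stem extensions of the Held group are isomorphisms. -/
theorem upper (Γ' : Type) [Group Γ'] [Finite Γ'] (σ : Γ' →* Cfsg.Spor.He) (hstem : IsStemExtension σ) :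
    ∃ π : Multiplicative (ZMod 1) →* σ.ker, Function.Surjective π := by
  obtain ⟨ρ, hρ⟩ := exists_act
  obtain ⟨e⟩ := stab_equiv hS ρ hρ
  letI : MulAction Cfsg.Spor.He (Fin 4116) := MulAction.compHom (Fin 4116) ρ
  have hMH : HasCyclicSchurMultiplier (MulAction.stabilizer Cfsg.Spor.He (⟨0, by norm_num⟩ : Fin 4116)) 1 :=
    hasSchur_transport e sp4_mult
  have hperf : commutator (MulAction.stabilizer Cfsg.Spor.He (⟨0, by norm_num⟩ : Fin 4116)) = ⊤ :=
    commutator_top_of_equiv e sp4_perf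
  obtain ⟨Q, hQ, hQk, hπ, s, hs⟩ := exists_quot_section hstem _ hperf hMH
  have hst := stem_quot hstem Q hQk
  have h3 : ∃ π : Multiplicative (ZMod 1) →* (QuotientGroup.lift Q σ (fun x hx => hQk hx)).ker,
      Function.Surjective π :=
    upper_sec hS (QuotientGroup.lift Q σ (fun x hx => hQk hx)) hst ρ hρ s hs
  exact surj_of_quot (a := 1) (b := 1) hstem Q hQk (by norm_num) hπ h3

include hS in
/-- The Schur multiplier of the Held group is trivial. -/
theorem mult_main : HasCyclicSchurMultiplier Cfsg.Spor.He 1 := by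
  have hfin : Finite Cfsg.Spor.He := Nat.finite_of_card_ne_zero (by rw [hS.2]; norm_num)
  refine hasCyclic_of_trivMult ?_
  intro Γ _ _ σ hσ
  obtain ⟨π, hπ⟩ := upper hS Γ σ hσ
  rw [injective_iff_map_eq_one]
  intro a ha
  obtain ⟨u, hu⟩ := hπ ⟨a, ha⟩
  have hu1 : u = 1 := Subsingleton.elim _ _
  rw [hu1, map_one] at hu
  exact (congrArg Subtype.val hu).symm

end Main

end Cfsg.Agent.Lib.Compute.Mult.He
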