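import Cfsg.Agent.Lib.Compute.Mult.He.VarU
import Cfsg.Agent.Lib.Compute.Mult.He.CheckU
import Cfsg.Agent.Lib.Compute.PresTransfer2
import Cfsg.Agent.Lib.Compute.HeSp4.Main
import Cfsg.Agent.S2092
import Cfsg.Prelude.Def_Sporadic

/-!
# The Schur multiplier of the Held group

The table of the cosets of the subgroup `Sp₄(4)`, with its edge labels.
-/

set_option autoImplicit false
set_option maxRecDepth 100000

namespace Cfsg.Agent.Lib.Compute.Mult.He

open Cfsg Cfsg.Spor
open Cfsg.Agent.Lib.Compute.PermCert Cfsg.Agent.Lib.Compute.PeelCert Cfsg.Agent.Lib.Compute.CoverCert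
open Cfsg.Agent.Lib.Compute.SchurLin Cfsg.Agent.Lib.Compute.SchurU Cfsg.Agent.Lib.Compute.PresTransfer
open Cfsg.Agent.Lib.Compute.StemQuot
open Cfsg.Agent.Lib.Compute.ToddCoxeterCore (wordEl wordEl_nil wordEl_cons wordEl_append)
open Cfsg.Agent.Lib.Compute.ToddCoxeterPresented (toLetters letterOf coxList mem_coxR HOf)

/-- The relators. -/
abbrev RS : Set (FreeGroup He.Gen) := coxRelators He.edges ∪ {r | r ∈ He.extra}

/-- The generators, numbered. -/
def eG : Fin 7 ≃ He.Gen where
  toFun := ![.a, .b, .c, .d, .e, .f, .g]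
  invFun := fun x => match x with
    | .a => 0 | .b => 1 | .c => 2 | .d => 3 | .e => 4 | .f => 5 | .g => 6
  left_inv := by decide
  right_inv := by intro x; cases x <;> rfl

/-- The letters. -/
def lets : List (He.Gen × Bool) :=
  [(.a, true), (.a, false), (.b, true), (.b, false), (.c, true), (.c, false), (.d, true), (.d, false),
   (.e, true), (.e, false), (.f, true), (.f, false), (.g, true), (.g, false)]

theorem hcode : ∀ (j : Fin 7) (b : Bool), letterOf lets (eG j, b) = 2 * j.val + (if b then 0 else 1) := by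
  decide

theorem hgens : ∀ a, (a, true) ∈ lets := by
  intro a
  cases a <;> decide

/-- The generators in the group. -/
noncomputable abbrev g : ℕ → Cfsg.Spor.He := gP eG RS

/-- The letters of a relator. -/
def Lt : FreeGroup (Fin 7) → List ℕ := LtP eG lets

theorem hLt (r : FreeGroup (Fin 7)) : wordEl (ltr (gF 7)) (Lt r) = r := hLtP eG lets hcode r

theorem hLtlt (r : FreeGroup (Fin 7)) : ∀ x ∈ Lt r, x < 2 * 7 := hLtPlt eG lets (by decide) hgens r

theorem Lt_mem : ∀ r ∈ coxList He.edges ++ He.extra, toLetters lets r ∈ WW.drop 7 := by decide +kernel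

/-! ### The table -/

theorem tab_spec {i : ℕ} (hi : i < 4116) :
    (∀ x < 14, tG i x < 4116 ∧ tG (tG i x) (flp x) = i) ∧
      (i ≠ 0 → parG i < i ∧ ltG i < 14 ∧ tG (parG i) (ltG i) = i) := by
  have h := (allB_iff _ _).1 tab_ok i hi
  simp only [tabOK, Bool.and_eq_true, Bool.or_eq_true, Nat.beq_eq, Nat.blt_eq] at h
  obtain ⟨h1, h2⟩ := h
  constructor
  · intro x hx
    have h3 := (allB_iff _ _).1 h1 x hx
    simp only [Bool.and_eq_true, Nat.beq_eq, Nat.blt_eq] at h3
    exact h3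
  · intro h0
    rcases h2 with h2 | h2
    · exact absurd h2 h0
    · exact ⟨h2.1.1, h2.1.2, h2.2⟩

theorem pTab : PTab tG 7 4116 :=
  ⟨fun i hi x hx => ((tab_spec hi).1 x hx).1, fun i hi x hx => ((tab_spec hi).1 x hx).2⟩

theorem hletW : ∀ k, ∀ x ∈ WW.getD k [], x < 2 * 7 := by
  intro k x hx
  rcases getD_mem_or (W := WW) k with h | h
  · exact lt_ok _ h x hx
  · rw [h] at hx
    simp at hx

theorem hlenW : ∀ k, (WW.getD k []).length ≤ 47 := by
  intro k
  rcases getD_mem_or (W := WW) k with h | h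
  · exact len_ok _ h
  · rw [h]
    simp

theorem hendW (k : ℕ) : ∀ i < 4116, walkEnd tG i (WW.getD k []) = i := by
  intro i hi
  by_cases hk : k < 60
  · exact wendB_spec _ _ _ ((allB_iff _ _).1 (end_ok k hk) i hi)
  · have : WW.getD k [] = [] := by
      rw [List.getD_eq_default]
      rw [len_WW]
      omega
    rw [this]
    rfl

theorem hact_rows : ∀ r ∈ RP eG RS, ∀ i < 4116, walkEnd tG i (Lt r) = i := by
  intro r hr i hi
  have h1 : (FreeGroup.freeGroupCongr eG r) ∈ coxList He.edges ++ He.extra := (mem_coxR _ _ _).1 hr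
  have h2 := Lt_mem _ h1
  obtain ⟨k, hk, e⟩ := List.mem_iff_getElem.1 h2
  have h3 : Lt r = WW.getD (k + 7) [] := by
    show toLetters lets (FreeGroup.freeGroupCongr eG r) = _
    rw [← e, List.getElem_drop, List.getD_eq_getElem _ _ (by
      rw [List.length_drop] at hk
      omega)]
    congr 1
    omega
  rw [h3]
  exact hendW _ i hi

theorem exists_act : ∃ ρ : Cfsg.Spor.He →* Equiv.Perm (Fin 4116), ∀ j < 7, ρ (g j) = tp pTab j :=
  exists_action (fP eG RS) (fP_surj eG RS) (fP_of eG RS) (RP eG RS) (fP_ker eG RS) pTab Lt hLt hLtlt hact_rows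

theorem hmove : ∃ j < 7, ∃ i < 4116, tG i (2 * j) ≠ i := by
  decide +kernel

theorem exW (k : ℕ) (hk : k < 7) : ∃ C : List ℕ, WW.getD k [] = C ++ [2 * k + 1] := ⟨_, exa_ok k hk⟩

theorem var_spec {u : ℕ} (hu : u < 4116 * 7) : ssG u < 4116 ∧ bdB BB 4096 (53 + 8) (formG (rkG u)) = true ∧
    chkVar tG 7 parG ltG rkG formG kkG ssG pVG WW offC EG 7 BB 60 53 8 u = true := by
  have h := (allB_iff _ _).1 varR_all u hu
  simp only [varOK, Bool.and_eq_true, Nat.blt_eq] at h
  exact ⟨h.1.1, h.1.2, h.2⟩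

theorem BB_eq : BB = 262144 := rfl

section Main

variable (hS : IsHe Cfsg.Spor.He)

include hS in
theorem hrelW (k : ℕ) : wordEl (ltr g) (WW.getD k []) = 1 := by
  obtain ⟨ρ, hρ⟩ := exists_act
  haveI : IsSimpleGroup Cfsg.Spor.He := hS.1
  exact word_one_of_table pTab ρ hρ hmove (hletW k) (hendW k)

include hS in
/-- A stem extension with a section over the stabilizer of the first point is an isomorphism. -/
theorem upper_sec {Γ' : Type} [Group Γ'] [Finite Γ'] (σ : Γ' →* Cfsg.Spor.He) (hstem : IsStemExtension σ)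
    (ρ : Cfsg.Spor.He →* Equiv.Perm (Fin 4116)) (hρ : ∀ j < 7, ρ (g j) = tp pTab j)
    (s : (@MulAction.stabilizer _ (Fin 4116) _ (MulAction.compHom (Fin 4116) ρ) ⟨0, by norm_num⟩) →* Γ')
    (hs : ∀ l, σ (s l) = l) :
    ∃ π : Multiplicative (ZMod 1) →* σ.ker, Function.Surjective π := by
  have hparT : ∀ i < 4116, i ≠ 0 → parG i < i ∧ ltG i < 14 ∧ tG (parG i) (ltG i) = i :=
    fun i hi h0 => (tab_spec hi).2 h0
  letI : MulAction Cfsg.Spor.He (Fin 4116) := MulAction.compHom (Fin 4116) ρ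
  have tab := tab_of_action (g := g) pTab (by norm_num) ρ hρ hparT
  obtain ⟨z, rr, c⟩ := exists_cocy hstem tab (gP_gen eG RS) hletW (hrelW hS) exW exv_ok s hs
  let _ : CommGroup σ.ker :=
    { (inferInstance : Group σ.ker) with
      mul_comm := fun p q => Subtype.ext (Subgroup.mem_center_iff.mp (hstem.2.1 p.2) (q : Γ')).symm }
  obtain ⟨u, hu, hgen⟩ := peel_final (A := σ.ker) (par := parG) (lt := ltG) (rk := rkG) (formT := formG) (kk := kkG)
    (ss := ssG) (pV := pVG) (off := offC) (E := EG) (B := BB) (kmax := 60) (R := 53) (c0 := 8) (a := 4096) (Lm := 47)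
    (a2 := 31) c (by norm_num) pTab.hlt hletW
    (fun i hi h0 => by
      obtain ⟨a, b, c⟩ := hparT i hi h0
      exact ⟨by omega, b, c⟩)
    (by rw [BB_eq]; norm_num) hE_ok (by norm_num) (fun u hu => (var_spec hu).1) (by norm_num) (by rw [BB_eq]; norm_num)
    (by rw [BB_eq]; norm_num) hlenW hoff_ok (fun u hu => (var_spec hu).2.1) (fun u hu => (var_spec hu).2.2) rels_ok ord_ok
    tgt_ok cov_ok
  exact exists_surj_of_cyclic hu hgen

end Main

/-! ### The stabilizer -/

/-- The words of the subgroup `K`. -/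
theorem hK_words : ∀ h ∈ Cfsg.Agent.Lib.Compute.TC.He1.D.Hs, ∀ x ∈ [0, 15],
    (walkEnd tG x (toLetters lets h) = 0 ∨ walkEnd tG x (toLetters lets h) = 15) := by
  decide +kernel

theorem hK_lt : ∀ h : FreeGroup He.Gen, ∀ x ∈ toLetters lets h, x < 2 * 7 := by
  intro h x hx
  exact Cfsg.Agent.Lib.Compute.ToddCoxeterPresented.toLetters_lt lets hgens h x hx

end Cfsg.Agent.Lib.Compute.Mult.He
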